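import Cfsg.Agent.H52.Zsig
import Cfsg.Agent.H87.AlgBasic
import Cfsg.Agent.H3.ClassTwo
import Cfsg.Agent.H3.PGroup

set_option autoImplicit false
set_option linter.unusedSectionVars false
set_option linter.style.haveILetI false

open scoped commutatorElement

namespace Cfsg.Agent.H9

universe u

/-- A Camina pair `(D, K)` with elementary abelian `D / K` on which `G / D` acts regularly. -/
structure Cam {G : Type*} [Group G] (p : ℕ) (D K : Subgroup G) : Prop where
  nD : D.Normal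
  nK : K.Normal
  le : K ≤ D
  cam : ∀ x ∈ D, x ∉ K → ∀ k ∈ K, ∃ y ∈ D, y * x * y⁻¹ = x * k
  comm : ∀ x ∈ D, ∀ y ∈ D, y * x * y⁻¹ * x⁻¹ ∈ K
  fpf : ∀ h, h ∉ D → ∀ y ∈ D, h * y * h⁻¹ * y⁻¹ ∈ K → y ∈ K
  idx : K.relIndex D = D.index + 1
  ne : ∃ x ∈ D, x ∉ K
  pw : ∀ y ∈ D, y ^ p ∈ K

variable {G : Type*} [Group G] [Finite G] {p : ℕ} {D K : Subgroup G}

theorem mem_map_mk'_iff {N H : Subgroup G} [N.Normal] (h : N ≤ H) {x : G} :
    QuotientGroup.mk' N x ∈ H.map (QuotientGroup.mk' N) ↔ x ∈ H := by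
  rw [← Subgroup.mem_comap, Subgroup.comap_map_eq, QuotientGroup.ker_mk', sup_eq_left.2 h]

theorem Cam.map (h : Cam p D K) (N : Subgroup G) [N.Normal] (hN : N ≤ K) :
    Cam p (D.map (QuotientGroup.mk' N)) (K.map (QuotientGroup.mk' N)) where
  nD := h.nD.map _ (QuotientGroup.mk'_surjective N)
  nK := h.nK.map _ (QuotientGroup.mk'_surjective N)
  le := Subgroup.map_mono h.le
  cam := by
    rintro _ ⟨x, hx, rfl⟩ hxK _ ⟨k, hk, rfl⟩
    obtain ⟨y, hy, e⟩ := h.cam x hx (fun h1 => hxK ⟨x, h1, rfl⟩) k hk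
    exact ⟨_, ⟨y, hy, rfl⟩, by rw [← map_inv, ← map_mul, ← map_mul, e, map_mul]⟩
  comm := by
    rintro _ ⟨x, hx, rfl⟩ _ ⟨y, hy, rfl⟩
    exact ⟨_, h.comm x hx y hy, by simp only [map_mul, map_inv]⟩
  fpf := by
    rintro a ha _ ⟨y, hy, rfl⟩ h1
    obtain ⟨a, rfl⟩ := QuotientGroup.mk'_surjective N a
    rw [← map_inv, ← map_inv, ← map_mul, ← map_mul, ← map_mul, mem_map_mk'_iff hN] at h1
    exact ⟨y, h.fpf a (fun h2 => ha ⟨a, h2, rfl⟩) y hy h1, rfl⟩
  idx := by
    have e1 := Subgroup.relIndex_mul_index (Subgroup.map_mono (f := QuotientGroup.mk' N) h.le)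
    have e2 := Subgroup.relIndex_mul_index h.le
    have hk : (QuotientGroup.mk' N).ker ≤ K := by rwa [QuotientGroup.ker_mk']
    rw [Subgroup.index_map_eq _ (QuotientGroup.mk'_surjective N) hk,
      Subgroup.index_map_eq _ (QuotientGroup.mk'_surjective N) (hk.trans h.le)] at e1
    rw [Subgroup.index_map_eq _ (QuotientGroup.mk'_surjective N) (hk.trans h.le), ← h.idx]
    exact Nat.eq_of_mul_eq_mul_right (Nat.pos_of_ne_zero D.index_ne_zero_of_finite)
      (e1.trans e2.symm)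
  ne := by
    obtain ⟨x, hx, hxK⟩ := h.ne
    exact ⟨_, ⟨x, hx, rfl⟩, fun h1 => hxK ((mem_map_mk'_iff hN).1 h1)⟩
  pw := by
    rintro _ ⟨y, hy, rfl⟩
    exact ⟨_, h.pw y hy, map_pow _ _ _⟩

theorem Cam.card_lt (h : Cam p D K) {Z : Subgroup G} (hZ : Z ≤ K)
    (hc : ∀ z ∈ Z, ∀ y ∈ D, y * z = z * y) : Nat.card Z < K.relIndex D := by
  obtain ⟨x, hx, hxK⟩ := h.ne
  set C := D ⊓ Subgroup.centralizer ({x} : Set G) with hC
  have h1 : Z < C := by
    refine lt_of_le_of_ne (fun z hz => ⟨h.le (hZ hz), ?_⟩) fun e => hxK (hZ ?_)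
    · exact Subgroup.mem_centralizer_singleton_iff.2 (hc z hz x hx).symm
    · rw [e]
      exact ⟨hx, Subgroup.mem_centralizer_singleton_iff.2 rfl⟩
  have h2 : Nat.card Z < Nat.card C := by
    rw [← SetLike.coe_sort_coe, ← SetLike.coe_sort_coe C, Nat.card_coe_set_eq, Nat.card_coe_set_eq]
    exact Set.ncard_lt_ncard h1 (Set.toFinite _)
  choose y hy hyx using fun k : K => h.cam x hx hxK k k.2
  have h3 : Nat.card (K × C) ≤ Nat.card D := by
    refine Nat.card_le_card_of_injective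
      (fun a : K × C => (⟨y a.1 * a.2, D.mul_mem (hy _) a.2.2.1⟩ : D)) ?_
    rintro ⟨k, c⟩ ⟨k', c'⟩ e
    have e' : y k * c = y k' * c' := congrArg Subtype.val e
    have hc1 : (c : G) * x = x * c := Subgroup.mem_centralizer_singleton_iff.1 c.2.2
    have hc2 : (c' : G) * x = x * c' := Subgroup.mem_centralizer_singleton_iff.1 c'.2.2
    have e2 : x * k = x * k' := by
      rw [← hyx k, ← hyx k']
      calc y k * x * (y k)⁻¹ = (y k * c) * x * (y k * c)⁻¹ := by
            rw [mul_assoc (y k) c x, hc1]; group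
        _ = _ := by rw [e', mul_assoc (y k') c' x, hc2]; group
    obtain rfl : k = k' := Subtype.ext (mul_left_cancel e2)
    exact Prod.ext rfl (Subtype.ext (mul_left_cancel e'))
  have h4 : Nat.card K * K.relIndex D = Nat.card D := by
    rw [Subgroup.relIndex, ← (K.subgroupOf D).card_mul_index,
      Nat.card_congr (Subgroup.subgroupOfEquivOfLe h.le).toEquiv]
  rw [Nat.card_prod, ← h4] at h3
  exact h2.trans_le (Nat.le_of_mul_le_mul_left h3 Nat.card_pos)

/-- An element of prime order `r` acting on a small `p`-group acts trivially. -/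
theorem commute_of_primitive [hp : Fact p.Prime] {r n : ℕ} (hr : r.Prime)
    (hprim : ∀ k : ℕ, 1 ≤ k → k < n → ¬ r ∣ p ^ k - 1) (hrp : ¬ r ∣ p) {Z : Subgroup G}
    (hZn : Z.Normal) (hZ : IsPGroup p Z) (hlt : Nat.card Z < p ^ n) {a : G} (ha : a ^ r = 1) :
    ∀ z ∈ Z, a * z = z * a := by
  classical
  haveI := Fact.mk hr
  haveI := Fintype.ofFinite G
  set C := Z ⊓ Subgroup.centralizer ({a} : Set G)
  obtain ⟨d, hd⟩ := hZ.exists_card_eq
  obtain ⟨e, he⟩ := (hZ.to_le (inf_le_left : C ≤ Z)).exists_card_eq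
  have hA : IsPGroup r (Subgroup.zpowers a) := by
    rintro ⟨_, k, rfl⟩
    exact ⟨1, Subtype.ext (by
      simp only [pow_one, SubmonoidClass.coe_pow, OneMemClass.coe_one]
      rw [← zpow_natCast, ← zpow_mul, mul_comm, zpow_mul, zpow_natCast, ha, one_zpow])⟩
  have h1 := H87.dvd_card_of_no_fixed hA (fun g x : G => g * x * g⁻¹) (by simp)
    (fun g h x => by group) (Finset.univ.filter fun x => x ∈ Z ∧ x ∉ C) (by
      rintro _ ⟨k, rfl⟩ x hx
      simp only [Finset.mem_filter, Finset.mem_univ, true_and] at hx ⊢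
      refine ⟨hZn.conj_mem _ hx.1 _, fun h2 => hx.2 ⟨hx.1, ?_⟩⟩
      have h3 := Subgroup.mem_centralizer_singleton_iff.1 h2.2
      refine Subgroup.mem_centralizer_singleton_iff.2 ?_
      calc x * a = a ^ (-k) * (a ^ k * x * (a ^ k)⁻¹ * a) * a ^ k := by group
        _ = a * x := by rw [h3]; group) (by
      intro x hx
      simp only [Finset.mem_filter, Finset.mem_univ, true_and] at hx
      refine ⟨a, Subgroup.mem_zpowers a, fun h2 => hx.2 ⟨hx.1, ?_⟩⟩
      exact Subgroup.mem_centralizer_singleton_iff.2 (mul_inv_eq_iff_eq_mul.1 h2).symm)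
  have h2 : (Finset.univ.filter fun x => x ∈ Z ∧ x ∉ C).card + Nat.card C = Nat.card Z := by
    rw [Nat.card_eq_fintype_card, Nat.card_eq_fintype_card, Fintype.card_subtype,
      Fintype.card_subtype, ← Finset.card_union_of_disjoint]
    · congr 1
      ext x
      simp only [Finset.mem_union, Finset.mem_filter, Finset.mem_univ, true_and]
      exact ⟨fun h => h.elim (·.1) (·.1), fun h => by tauto⟩
    · rw [Finset.disjoint_filter]
      exact fun x _ h1 h2 => h1.2 h2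
  have hed : e ≤ d := by
    have := Subgroup.card_le_of_le (inf_le_left : C ≤ Z)
    rw [hd, he] at this
    exact (Nat.pow_le_pow_iff_right hp.out.one_lt).1 this
  have hdn : d < n := by
    rw [hd] at hlt
    exact (Nat.pow_lt_pow_iff_right hp.out.one_lt).1 hlt
  obtain ⟨k, rfl⟩ := Nat.exists_eq_add_of_le hed
  have h3 : (Finset.univ.filter fun x => x ∈ Z ∧ x ∉ C).card = p ^ e * (p ^ k - 1) := by
    rw [Nat.mul_sub_one, ← pow_add]
    exact Nat.eq_sub_of_add_eq (by rw [← hd, ← h2]; exact congrArg _ he.symm)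
  rw [h3] at h1
  have hk : k = 0 := by
    by_contra hk
    rcases (Nat.Prime.dvd_mul hr).1 h1 with h4 | h4
    · exact hrp (hr.dvd_of_dvd_pow h4)
    · exact hprim k (by omega) (by omega) h4
  subst hk
  have h5 : C = Z := Subgroup.eq_of_le_of_card_ge inf_le_left (by rw [hd, he, add_zero])
  intro z hz
  rw [← h5] at hz
  exact (Subgroup.mem_centralizer_singleton_iff.1 hz.2).symm

theorem index_centralizer_le [hp : Fact p.Prime] {Z : Subgroup G} (hZn : Z.Normal)
    (hZ : IsPGroup p Z) (hlt : Nat.card Z < p ^ 2) :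
    (Subgroup.centralizer (Z : Set G)).index ≤ p - 1 := by
  obtain ⟨d, hd⟩ := hZ.exists_card_eq
  have hd2 : d < 2 := by
    rw [hd] at hlt
    exact (Nat.pow_lt_pow_iff_right hp.out.one_lt).1 hlt
  have h1 : (MulAut.conjNormal : G →* MulAut Z).ker = Subgroup.centralizer (Z : Set G) := by
    ext g
    rw [MonoidHom.mem_ker, Subgroup.mem_centralizer_iff]
    constructor
    · intro h z hz
      have := congrArg Subtype.val (congrArg (fun φ : MulAut Z => φ ⟨z, hz⟩) h)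
      simp only [MulAut.conjNormal_apply, MulAut.one_apply] at this
      exact (mul_inv_eq_iff_eq_mul.1 this).symm
    · intro h
      ext z
      simp only [MulAut.conjNormal_apply, MulAut.one_apply]
      rw [← h z z.2, mul_inv_cancel_right]
  rw [← h1, Subgroup.index_ker]
  have hcyc : IsCyclic Z := by
    interval_cases d
    · haveI := (Nat.card_eq_one_iff_unique.1 (hd.trans (pow_zero p))).1
      infer_instance
    · exact isCyclic_of_prime_card (p := p) (hd.trans (pow_one p))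
  refine (Nat.card_le_card_of_injective _ Subtype.val_injective).trans ?_
  rw [IsCyclic.card_mulAut, hd]
  interval_cases d
  · have := hp.out.two_le
    simp; omega
  · simp [Nat.totient_prime hp.out]

theorem Cam.exists_elt [hp : Fact p.Prime] (hodd : p ≠ 2) (h : Cam p D K) (hD : IsPGroup p D)
    {Z : Subgroup G} [hZn : Z.Normal] (hZ : Z ≤ K) (hZ1 : Z ≠ ⊥)
    (hc : ∀ z ∈ Z, ∀ y ∈ D, y * z = z * y)
    (hc' : ∀ z ∈ K.map (QuotientGroup.mk' Z), ∀ y ∈ D.map (QuotientGroup.mk' Z), y * z = z * y) :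
    ∃ a, a ∉ D ∧ (∀ z ∈ Z, a * z = z * a) ∧ ∀ w ∈ K, a⁻¹ * w * a * w⁻¹ ∈ Z := by
  have hZp : IsPGroup p Z := hD.to_le (hZ.trans h.le)
  have hKp : IsPGroup p (K.map (QuotientGroup.mk' Z)) := (hD.to_le h.le).map _
  have h1 := h.card_lt hZ hc
  have h2 := (h.map Z hZ).card_lt le_rfl hc'
  have h3 : (K.map (QuotientGroup.mk' Z)).relIndex (D.map (QuotientGroup.mk' Z)) =
      K.relIndex D := by
    rw [(h.map Z hZ).idx, h.idx, Subgroup.index_map_eq _ (QuotientGroup.mk'_surjective Z)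
      (by rw [QuotientGroup.ker_mk']; exact hZ.trans h.le)]
  rw [h3] at h2
  obtain ⟨n, hn⟩ : ∃ n, K.relIndex D = p ^ n := by
    obtain ⟨m, hm⟩ := hD.exists_card_eq
    obtain ⟨n, -, hn⟩ := (Nat.dvd_prime_pow hp.out).1 (hm ▸ Subgroup.relIndex_dvd_card K D)
    exact ⟨n, hn⟩
  have hfin : ∀ a : G, (∀ z ∈ K.map (QuotientGroup.mk' Z), QuotientGroup.mk' Z a * z =
      z * QuotientGroup.mk' Z a) → ∀ w ∈ K, a⁻¹ * w * a * w⁻¹ ∈ Z := fun a ha w hw => by
    rw [← QuotientGroup.eq_one_iff, ← QuotientGroup.mk'_apply]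
    simp only [map_mul, map_inv]
    rw [mul_assoc _ _ (QuotientGroup.mk' Z a), ← ha _ ⟨w, hw, rfl⟩]
    group
  have hp3 : 3 ≤ p := by have := hp.out.two_le; omega
  rw [hn] at h1 h2
  have hidx : D.index = p ^ n - 1 := by have := h.idx; omega
  rcases Nat.lt_or_ge n 3 with hn3 | hn3
  · have hn2 : n = 2 := by
      obtain ⟨d, hd⟩ := hZp.exists_card_eq
      have : d ≠ 0 := fun h0 => hZ1 (Subgroup.eq_bot_of_card_eq Z (by rw [hd, h0, pow_zero]))
      rw [hd] at h1
      have := (Nat.pow_lt_pow_iff_right hp.out.one_lt).1 h1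
      omega
    subst hn2
    have i1 := index_centralizer_le hZn hZp h1
    have i2 := index_centralizer_le (h.map Z hZ).nK hKp h2
    rw [← Subgroup.index_comap_of_surjective _ (QuotientGroup.mk'_surjective Z)] at i2
    by_contra hcon
    push Not at hcon
    have hle : Subgroup.centralizer (Z : Set G) ⊓ (Subgroup.centralizer
        (K.map (QuotientGroup.mk' Z) : Set (G ⧸ Z))).comap (QuotientGroup.mk' Z) ≤ D := by
      intro a ha
      by_contra haD
      obtain ⟨w, hw, hw'⟩ := hcon a haD fun z hz => (ha.1 z hz).symm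
      exact hw' (hfin a (fun z hz => (ha.2 z hz).symm) w hw)
    have i3 := Nat.le_of_dvd (Nat.pos_of_ne_zero Subgroup.index_ne_zero_of_finite)
      (Subgroup.index_dvd_of_le hle)
    have i4 := (i3.trans Subgroup.index_inf_le).trans (Nat.mul_le_mul i1 i2)
    rw [hidx] at i4
    obtain ⟨k, rfl⟩ : ∃ k, p = k + 1 := ⟨p - 1, by omega⟩
    simp only [Nat.add_sub_cancel] at i4
    have : (k + 1) ^ 2 = k * k + 2 * k + 1 := by ring
    omega
  · obtain ⟨r, hr, hrd, hprim⟩ := H52.Zsig.zsigmondy hp.out.two_le hn3 (fun h => hodd h.1)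
    haveI := Fact.mk hr
    have hrp : ¬ r ∣ p := fun h4 => by
      have h5 : r ∣ p ^ n := dvd_pow h4 (by omega)
      have h6 := (Nat.dvd_sub h5 hrd)
      have h7 : 1 ≤ p ^ n := Nat.one_le_pow _ _ hp.out.pos
      rw [Nat.sub_sub_self h7] at h6
      exact hr.not_dvd_one h6
    obtain ⟨a, ha⟩ := exists_prime_orderOf_dvd_card' (G := G) r
      ((hidx ▸ hrd).trans D.index_dvd_card)
    have har : a ^ r = 1 := ha ▸ pow_orderOf_eq_one a
    refine ⟨a, fun haD => ?_, commute_of_primitive hr hprim hrp hZn hZp h1 har,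
      hfin a (commute_of_primitive hr hprim hrp (h.map Z hZ).nK hKp h2 (by rw [← map_pow, har,
        map_one]))⟩
    obtain ⟨m, hm⟩ := hD.exists_card_eq
    have := D.orderOf_dvd_natCard haD
    rw [ha, hm] at this
    exact hrp (hr.dvd_of_dvd_pow this)

theorem Cam.central_of (h : Cam p D K) {Z : Subgroup G} (hc : ∀ z ∈ Z, ∀ y ∈ D, y * z = z * y)
    (hZ : Z ≤ D) (hc' : ∀ w ∈ K, ∀ y ∈ D, y * w * y⁻¹ * w⁻¹ ∈ Z) {a : G} (ha : a ∉ D)
    (h1 : ∀ z ∈ Z, a * z = z * a) (h2 : ∀ w ∈ K, a⁻¹ * w * a * w⁻¹ ∈ Z) :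
    ∀ w ∈ K, ∀ y ∈ D, y * w = w * y := by
  intro w hw
  haveI := h.nK
  haveI := h.nD
  let f : D →* G :=
    { toFun := fun y => y * w * (y : G)⁻¹ * w⁻¹
      map_one' := by simp
      map_mul' := fun y y' => by
        have e1 := hc _ (hc' w hw y' y'.2) y y.2
        have e2 := hc _ (hc' w hw y' y'.2) _ (hZ (hc' w hw y y.2))
        simp only [Subgroup.coe_mul]
        rw [e2]
        calc _ = (y * (y' * w * (y' : G)⁻¹ * w⁻¹)) * w * (y : G)⁻¹ * w⁻¹ := by group
          _ = _ := by rw [e1]; group }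
  have hf : ∀ y : D, f y = y * w * (y : G)⁻¹ * w⁻¹ := fun _ => rfl
  have hfc : ∀ y y' : D, f y * f y' = f y' * f y := fun y y' =>
    hc _ (hc' w hw y' y'.2) _ (hZ (hc' w hw y y.2))
  have hK : ∀ k : D, (k : G) ∈ K → f k = 1 := fun k hk => by
    obtain ⟨x, hx, hxK⟩ := h.ne
    obtain ⟨y, hy, e⟩ := h.cam x hx hxK k hk
    have e' : (⟨y, hy⟩ * ⟨x, hx⟩ * ⟨y, hy⟩⁻¹ : D) = ⟨x, hx⟩ * k := Subtype.ext e
    have e2 := congrArg f e'
    simp only [map_mul, map_inv] at e2
    rw [hfc, mul_inv_cancel_right] at e2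
    exact (left_eq_mul.1 e2)
  have ha' : ∀ y : D, f (MulAut.conjNormal a y) = f y := fun y => by
    rw [hf, hf, MulAut.conjNormal_apply]
    have e1 := hc _ (h2 w hw) y y.2
    have e2 := h1 _ (hc' w hw y y.2)
    have e3 := hc _ (h2 w hw) _ (hZ (hc' w hw y y.2))
    set z := a⁻¹ * w * a * w⁻¹ with hz
    have e4 : w = a * z * w * a⁻¹ := by rw [hz]; group
    calc a * y * a⁻¹ * w * (a * y * a⁻¹)⁻¹ * w⁻¹
        = a * y * a⁻¹ * (a * z * w * a⁻¹) * (a * y * a⁻¹)⁻¹ * (a * z * w * a⁻¹)⁻¹ := by rw [← e4]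
      _ = a * ((y * z) * w * (y : G)⁻¹ * w⁻¹ * z⁻¹) * a⁻¹ := by group
      _ = a * (z * (y * w * (y : G)⁻¹ * w⁻¹) * z⁻¹) * a⁻¹ := by rw [e1]; group
      _ = _ := by rw [← e3, mul_inv_cancel_right, e2, mul_inv_cancel_right]
  haveI := (h.map K le_rfl).nD
  have hfp : MonoidHom.FixedPointFree (MulAut.conjNormal (QuotientGroup.mk' K a) :
      MulAut (D.map (QuotientGroup.mk' K))) := by
    rintro ⟨_, y, hy, rfl⟩ e
    have e' := congrArg Subtype.val e
    rw [MulAut.conjNormal_apply] at e'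
    refine Subtype.ext ((QuotientGroup.eq_one_iff y).2 (h.fpf a ha y hy ?_))
    rw [← QuotientGroup.eq_one_iff, ← QuotientGroup.mk'_apply]
    simp only [map_mul, map_inv]
    rw [e', mul_inv_cancel]
  intro y hy
  obtain ⟨⟨_, y', hy', rfl⟩, e⟩ := hfp.commutatorMap_surjective ⟨_, y, hy, rfl⟩
  have e' := congrArg Subtype.val e
  simp only [MonoidHom.commutatorMap_apply, div_eq_mul_inv, Subgroup.coe_mul, Subgroup.coe_inv,
    MulAut.conjNormal_apply] at e'
  rw [← map_inv, ← map_mul, ← map_mul, ← map_inv, ← map_mul, QuotientGroup.mk'_apply,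
    QuotientGroup.mk'_apply, QuotientGroup.eq] at e'
  have e2 := hK (((⟨y', hy'⟩ : D) * (MulAut.conjNormal a (⟨y', hy'⟩ : D))⁻¹)⁻¹ * ⟨y, hy⟩)
    (by simpa only [Subgroup.coe_mul, Subgroup.coe_inv, MulAut.conjNormal_apply] using e')
  simp only [map_mul, map_inv, ha', mul_inv_cancel, inv_one, one_mul] at e2
  rw [hf, mul_inv_eq_one, mul_inv_eq_iff_eq_mul] at e2
  exact e2

theorem Cam.central [hp : Fact p.Prime] (hodd : p ≠ 2) (n : ℕ) :
    ∀ (G : Type u) [Group G] [Finite G] (D K : Subgroup G), Nat.card G = n → Cam p D K →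
      IsPGroup p D → ∀ w ∈ K, ∀ y ∈ D, y * w = w * y := by
  induction n using Nat.strong_induction_on with
  | _ n ih =>
  intro G _ _ D K hn h hD
  by_cases hK : K = ⊥
  · intro w hw y _
    rw [hK, Subgroup.mem_bot] at hw
    rw [hw, mul_one, one_mul]
  haveI := h.nK
  haveI := h.nD
  set Z := K ⊓ Subgroup.centralizer (D : Set G) with hZ
  haveI hZn : Z.Normal := Subgroup.normal_inf_normal _ _
  have hZ1 : Z ≠ ⊥ := by
    obtain ⟨z, hz, hz2, hz1⟩ := H3.exists_mem_center_orderOf_eq hD (K.subgroupOf D) fun h0 =>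
      hK ((Subgroup.subgroupOf_eq_bot.1 h0).eq_bot_of_le h.le)
    intro h0
    have : (z : G) ∈ Z := ⟨hz, fun y hy => congrArg Subtype.val
      (Subgroup.mem_center_iff.1 hz2 ⟨y, hy⟩)⟩
    rw [h0, Subgroup.mem_bot] at this
    rw [show z = 1 from Subtype.ext this, orderOf_one] at hz1
    exact hp.out.one_lt.ne hz1
  have hc : ∀ z ∈ Z, ∀ y ∈ D, y * z = z * y := fun z hz y hy => hz.2 y hy
  have hc' := ih _ (by
    rw [← hn, ← Z.card_mul_index]
    exact (Nat.lt_mul_iff_one_lt_left (Nat.pos_of_ne_zero Z.index_ne_zero_of_finite)).2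
      ((Subgroup.one_lt_card_iff_ne_bot Z).2 hZ1)) (G ⧸ Z) _ _ rfl (h.map Z inf_le_left)
    (hD.map _)
  obtain ⟨a, ha, h1, h2⟩ := h.exists_elt hodd hD inf_le_left hZ1 hc hc'
  refine h.central_of hc (inf_le_left.trans h.le) (fun w hw y hy => ?_) ha h1 h2
  rw [← QuotientGroup.eq_one_iff, ← QuotientGroup.mk'_apply]
  simp only [map_mul, map_inv]
  rw [hc' _ ⟨w, hw, rfl⟩ _ ⟨y, hy, rfl⟩]
  group

theorem Cam.exists_pow_eq_one [hp : Fact p.Prime] (hodd : p ≠ 2) (h : Cam p D K)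
    (hD : IsPGroup p D) : ∃ x ∈ D, x ∉ K ∧ x ^ p = 1 := by
  have hc := Cam.central hodd _ G D K rfl h hD
  have h1 := h.card_lt le_rfl hc
  have hcm : ∀ x ∈ D, ∀ y ∈ D, ⁅y, x⁆ ∈ K := fun x hx y hy => h.comm x hx y hy
  have hpow : ∀ x ∈ D, ∀ y ∈ D, ⁅y, x⁆ ^ p = 1 := fun x hx y hy => by
    have e : ∀ k : ℕ, y * x ^ k * y⁻¹ = ⁅y, x⁆ ^ k * x ^ k := fun k => by
      rw [← conj_pow, ← Commute.mul_pow (hc _ (hcm x hx y hy) x hx).symm, commutatorElement_def,
        inv_mul_cancel_right]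
    have := e p
    rw [hc _ (h.pw x hx) y hy, mul_inv_cancel_right] at this
    exact (right_eq_mul.1 this)
  have hmul : ∀ x ∈ D, ∀ y ∈ D, (x * y) ^ p = x ^ p * y ^ p := fun x hx y hy =>
    H3.mul_pow_of_odd_of_commute_commutator (hc _ (hcm x hx y hy) x hx)
      (hc _ (hcm x hx y hy) y hy) (hp.out.odd_of_ne_two hodd) (hpow x hx y hy)
  by_contra hcon
  push Not at hcon
  refine absurd h1 (not_lt.2 (Nat.card_le_card_of_injective
    (fun c : D ⧸ K.subgroupOf D => (⟨(c.out : G) ^ p, h.pw _ c.out.2⟩ : K)) fun a b e => ?_))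
  have e' : (a.out : G) ^ p = (b.out : G) ^ p := congrArg Subtype.val e
  rw [← a.out_eq', ← b.out_eq', QuotientGroup.eq, Subgroup.mem_subgroupOf]
  by_contra h2
  refine hcon _ (a.out⁻¹ * b.out).2 h2 ?_
  rw [Subgroup.coe_mul, Subgroup.coe_inv, hmul _ (D.inv_mem a.out.2) _ b.out.2, inv_pow, e',
    inv_mul_cancel]

end Cfsg.Agent.H9
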